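import Cfsg.Agent.Lib.KGV.Sym
import Cfsg.Agent.S4966

/-! Gow's generalized character for symplectic and for self-dual modules. -/

set_option autoImplicit false

namespace Cfsg.Lib.KGV

open Cfsg.Lib.Char Cfsg.Lib.Clifford Cfsg.Lib.CharDeg Cfsg.Lib.Symp Module LinearMap Matrix
open scoped ComplexConjugate

universe u

variable {C : Type*} [Group C] [Fintype C] {p : ℕ} [hp : Fact p.Prime] {F : Type*} [Field F] [CharP F p]
  {f : Zb →+* F}

/-- Apply a field automorphism to the matrix entries. -/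
noncomputable def galEnd {ι : Type*} [Fintype ι] [DecidableEq ι] (σ : ℂ →+* ℂ) : End ℂ (ι → ℂ) →+* End ℂ (ι → ℂ) :=
  (Matrix.toLinAlgEquiv' (R := ℂ) (n := ι)).toRingEquiv.toRingHom.comp
    (σ.mapMatrix.comp (LinearMap.toMatrixAlgEquiv' (R := ℂ) (n := ι)).toRingEquiv.toRingHom)

theorem galEnd_single {ι : Type*} [Fintype ι] [DecidableEq ι] (σ : ℂ →+* ℂ) (T : End ℂ (ι → ℂ)) (s t : ι) :
    galEnd σ T (Pi.single t 1) s = σ (T (Pi.single t 1) s) := by
  simp [galEnd, Matrix.toLinAlgEquiv'_apply]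

theorem trace_galEnd {ι : Type*} [Fintype ι] [DecidableEq ι] (σ : ℂ →+* ℂ) (T : End ℂ (ι → ℂ)) :
    LinearMap.trace ℂ _ (galEnd σ T) = σ (LinearMap.trace ℂ _ T) := by
  simp only [trace_fun, galEnd_single, map_sum]

theorem weil_char (hcop : ¬ p ∣ Nat.card C) (h2 : (2 : ZMod p) ≠ 0) {m : ℕ}
    (φ : C →* symplecticGroup (Fin m) (ZMod p)) : ∃ ω : C → ℂ, IsCharacter C ω ∧ ω 1 = p ^ m ∧
      (∀ c, ω c⁻¹ * ω c = Nat.card {v // (φ c).1 *ᵥ v = v}) ∧
        ∀ c, ∃ z : ℂ, z ^ Nat.card C = 1 ∧ ω c⁻¹ = z * ω c := by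
  classical
  let ψ := ZMod.stdAddChar (N := p)
  have hψ : ψ ≠ 1 := by simpa using ZMod.isPrimitive_stdAddChar p one_ne_zero
  obtain ⟨W, hW⟩ := exists_weil (l := Fin m) hψ h2
  let τ : Representation ℂ C ((Fin m → ZMod p) → ℂ) :=
    ((Subalgebra.val _).toMonoidHom.comp W).comp φ
  have hτ : ∀ c, Impl ψ (φ c) (τ c) := fun c => hW (φ c)
  have hinv : ∀ c, τ c * τ c⁻¹ = 1 := fun c => by rw [← map_mul, mul_inv_cancel, map_one]
  refine ⟨τ.character, isCharacter_character τ, by simp, fun c => ?_, fun c => ?_⟩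
  · rw [← Representation.char_linHom]
    refine trace_eq_card_fixed_of_basis (heisBasis hψ h2) _ _ fun v => ?_
    rw [heisBasis_apply, heisBasis_apply, Representation.linHom_apply]
    change τ c * (heis ψ v * τ c⁻¹) = _
    rw [← mul_assoc, hτ c v, mul_assoc, hinv, mul_one]
  have hn : 0 < Nat.card C := Nat.card_pos
  obtain ⟨σ, h3, h4⟩ := exists_ringEquiv_pow_fix (k := Nat.card C - 1) hn.ne' hp.out.ne_zero
    ((Nat.Prime.coprime_iff_not_dvd hp.out).2 hcop).symm ((Nat.coprime_self_sub_left hn).2 (Nat.coprime_one_left _))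
  have h5 : ∀ v : Fin m ⊕ Fin m → ZMod p, galEnd σ.toRingHom (heis ψ v) = heis ψ v := fun v =>
    (Pi.basisFun ℂ _).ext fun t => funext fun s => by
      rw [Pi.basisFun_apply, galEnd_single, heis_apply, map_mul]
      refine congrArg₂ _ (h4 _ (by rw [← AddChar.map_nsmul_eq_pow]; simp)) ?_
      simp [Pi.single_apply]
  have h6 : Impl ψ (φ c) (galEnd σ.toRingHom (τ c)) := fun v => by
    rw [← h5, ← map_mul, hτ c v, map_mul, h5]
  have h7 := h6.mul (hτ c⁻¹)
  rw [← map_mul, mul_inv_cancel, map_one] at h7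
  obtain ⟨z, hz⟩ := h7.eq_smul hψ h2
  have h8 : galEnd σ.toRingHom (τ c) = z • τ c := by
    rw [← mul_one (galEnd _ _), ← hinv c⁻¹, ← mul_assoc, hz, inv_inv, smul_mul_assoc, one_mul]
  refine ⟨z, ?_, ?_⟩
  · have := congrArg (· ^ Nat.card C) h8
    simp only [← map_pow, _root_.smul_pow, pow_card_eq_one', map_one] at this
    simpa using (congrFun (LinearMap.congr_fun this fun _ => 1) 0).symm
  · have := congrArg (LinearMap.trace ℂ _) h8
    rw [trace_galEnd, map_smul, smul_eq_mul] at this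
    refine Eq.trans ?_ this
    refine Eq.trans ?_ ((isCharacter_character τ).isGeneralizedCharacter.map_apply_eq_pow_of_dvd σ.toRingHom
      (orderOf_dvd_natCard c) h3).symm
    congr 1
    rw [inv_eq_iff_mul_eq_one, ← pow_succ', Nat.sub_add_cancel hn, pow_card_eq_one']

section Mod

variable {M : Type u} [AddCommGroup M] [Module (ZMod p) M] [Finite M] (ρ : Representation (ZMod p) C M)

theorem good_alt (hcop : ¬ p ∣ Nat.card C) (h2 : (2 : ZMod p) ≠ 0) {B : LinearMap.BilinForm (ZMod p) M}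
    (hB : B.Nondegenerate) (hA : B.IsAlt) (hi : ∀ c x y, B (ρ c x) (ρ c y) = B x y) : Good f (dl ρ) := by
  obtain ⟨m, hm⟩ := even_finrank hA hB
  obtain ⟨e, he⟩ := exists_isometry_of_finrank_eq hA hB (bil_isAlt (Fin m) (ZMod p)) (bil_nondegenerate _ _)
    (by rw [hm, finrank_std, Fintype.card_fin, two_mul])
  let φ₀ : C →* isom B := ((LinearMap.GeneralLinearGroup.generalLinearEquiv (ZMod p) M).toMonoidHom.comp
    ρ.toHomUnits).codRestrict _ fun c => hi c
  let φ := ((isomCongr e he).trans (spEquiv _ _).symm).toMonoidHom.comp φ₀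
  have hφ : ∀ c v, (φ c).1 *ᵥ v = e (ρ c (e.symm v)) := fun c v => spEquiv_symm_mulVec _ v
  obtain ⟨ω, h1, h3, h4, h5⟩ := weil_char hcop h2 φ
  have h6 : ∀ c, ω c⁻¹ * ω c = fx ρ c := fun c => (h4 c).trans (congrArg _ (Nat.card_congr
    (e.symm.toEquiv.subtypeEquiv fun v => by
      rw [hφ, ← e.eq_symm_apply]
      exact sub_eq_zero.symm)))
  have h0 : ∀ c, ω c ≠ 0 := fun c h => fx_ne ρ c (by rw [← h6, h, mul_zero])
  choose z hz hz' using h5
  have hM : (Nat.card M : ℂ) = p ^ m * p ^ m := by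
    rw [Module.natCard_eq_pow_finrank (K := ZMod p), Nat.card_zmod, hm, pow_add]; simp
  have h7 : ∀ c, ((p : ℂ) ^ m / ω c) ^ 2 = z c * dl ρ c := fun c => by
    have e := congrArg (Nat.cast : ℕ → ℂ) (dl_mul_fx ρ c)
    rw [Nat.cast_mul, ← h6, hz', hM] at e
    have := h0 c
    field_simp
    linear_combination -e
  have hzi : ∀ c, IsIntegral ℤ (z c) := fun c => isIntegral_of_pow_eq_one Nat.card_pos.ne' (hz c)
  let γ : C → Zb := fun c => ⟨p ^ m / ω c, IsIntegral.of_pow two_pos (h7 c ▸ (hzi c).mul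
    (isIntegral_algebraMap (x := (dl ρ c : ℤ))))⟩
  refine ⟨γ, intGen_div ρ hcop (ω := ((p ^ m : ℕ) : ℂ) • fun c => ω c⁻¹)
    (IntGen.of_gen (h1.comp_inv.isGeneralizedCharacter.natCast_smul _)) γ fun c => ?_, Subtype.ext ?_,
    fun σ c => le_of_eq ?_, fun c hc => ?_⟩
  · have := h0 c
    simp only [γ, ← h6, Pi.smul_apply, smul_eq_mul, Nat.cast_pow]
    field_simp
  · simp only [γ, h3]
    exact div_self (pow_ne_zero _ (Nat.cast_ne_zero.2 hp.out.ne_zero))
  · rw [← norm_pow, ← map_pow, h7, map_mul, norm_mul, map_natCast, Complex.norm_natCast,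
      Complex.norm_eq_one_of_pow_eq_one (by rw [← map_pow, hz, map_one]) Nat.card_pos.ne', one_mul]
  · have : γ c ^ 2 = ⟨z c, hzi c⟩ * (dl ρ c : ℕ) := Subtype.ext (h7 c)
    refine pow_eq_zero_iff two_ne_zero |>.1 ?_
    rw [← map_pow, this, map_mul, map_natCast, cast_dl ρ hc, mul_zero]

theorem good_dual (hcop : ¬ p ∣ Nat.card C) {B : LinearMap.BilinForm (ZMod p) M}
    (hB : B.Nondegenerate) (hi : ∀ c x y, B (ρ c x) (ρ c y) = B x y) : Good f (dl ρ) := by
  obtain ⟨U, W, h, hU, hW, ⟨A, a1, a2, a3⟩, ⟨S, s1, s2, s3⟩, -⟩ := Agent.S4966.result p hcop ρ B hB hi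
  rw [funext (dl_glue ρ h (fun g u hu => hU g u hu) fun g u hu => hW g u hu)]
  have hA : (A.restrict U).Nondegenerate :=
    .ofSeparatingLeft fun x hx => Subtype.ext (a3 x x.2 fun y hy => hx ⟨y, hy⟩)
  refine Good.mul ?_ (good_sym _ hcop (B := S.restrict W)
    (.ofSeparatingLeft fun x hx => Subtype.ext (s3 x x.2 fun y hy => hx ⟨y, hy⟩)) (fun x y => s1 x y)
    fun c x y => s2 c x x.2 y y.2)
  by_cases h2 : (2 : ZMod p) = 0
  · refine good_sym _ hcop hA (fun x y => ?_) fun c x y => a2 c x x.2 y y.2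
    have := LinearMap.IsAlt.neg a1 (x : M) y
    change A x y = A y x
    linear_combination A x y * h2 + this
  · exact good_alt _ hcop h2 hA (fun x => a1 x) fun c x y => a2 c x x.2 y y.2

end Mod

end Cfsg.Lib.KGV
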