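import Cfsg.Agent.Lib.Clifford.Degree
import Cfsg.Agent.Lib.Clifford.PElt
import Cfsg.Agent.Lib.Char.Galois

/-! Knörr's criterion for the `k(GV)` problem. -/

set_option autoImplicit false

namespace Cfsg.Lib.KGV

open Cfsg.Lib.Char Cfsg.Lib.Clifford Subgroup
open scoped ComplexConjugate

/-- The algebraic integers. -/
abbrev Zb := integralClosure ℤ ℂ

section IntGen

variable {C : Type*} [Group C] [Fintype C] {γ γ' : C → ℂ}

/-- A combination of characters with algebraic integer coefficients. -/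
def IntGen (γ : C → ℂ) : Prop :=
  IsClassFunction C γ ∧ ∀ ψ, IsCharacter C ψ → IsIntegral ℤ (classInner (ψ * γ) fun _ => 1)

theorem IntGen.of_gen (h : IsGeneralizedCharacter C γ) : IntGen γ :=
  ⟨h.isClassFunction, fun ψ hψ => by
    obtain ⟨n, hn⟩ := (hψ.isGeneralizedCharacter.mul h).exists_inner_eq_int isGeneralizedCharacter_one
    rw [hn]
    exact isIntegral_algebraMap (x := n)⟩

theorem IntGen.smul (h : IntGen γ) {a : ℂ} (ha : IsIntegral ℤ a) : IntGen (a • γ) :=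
  ⟨h.1.smul a, fun ψ hψ => by
    rw [mul_smul_comm, classInner_smul_left]
    exact ha.mul (h.2 ψ hψ)⟩

theorem IntGen.sum {ι : Type*} (s : Finset ι) {g : ι → C → ℂ} (h : ∀ i ∈ s, IntGen (g i)) :
    IntGen (∑ i ∈ s, g i) :=
  ⟨isClassFunction_sum s g fun i hi => (h i hi).1, fun ψ hψ => by
    rw [Finset.mul_sum, classInner_sum_left]
    exact IsIntegral.sum _ fun i hi => (h i hi).2 ψ hψ⟩

theorem IntGen.mul (h : IntGen γ) (h' : IntGen γ') : IntGen (γ * γ') := by
  rw [h'.1.eq_sum_irr, Finset.mul_sum]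
  refine IntGen.sum _ fun χ _ => ?_
  rw [mul_smul_comm]
  refine IntGen.smul ⟨h.1.mul χ.2.isClassFunction, fun ψ hψ => ?_⟩ ?_
  · rw [mul_comm γ, ← mul_assoc]
    exact h.2 _ (hψ.mul χ.2.isCharacter)
  · rw [classInner_eq_inner_one]
    convert h'.2 _ χ.2.isCharacter.conj using 2
    exact funext fun g => mul_comm _ _

theorem IntGen.of_coprime {N : ℕ} (hN : N.Coprime (Nat.card C)) (hc : IsClassFunction C γ)
    (hi : ∀ c, IsIntegral ℤ (γ c)) (h : IntGen ((N : ℂ) • γ)) : IntGen γ :=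
  ⟨hc, fun ψ hψ => by
    have h1 := h.2 ψ hψ
    rw [mul_smul_comm, classInner_smul_left] at h1
    have h2 : IsIntegral ℤ ((Nat.card C : ℂ) * classInner (ψ * γ) fun _ => 1) := by
      rw [card_mul_classInner]
      exact IsIntegral.sum _ fun c _ => by simpa using (hψ.isIntegral c).mul (hi c)
    obtain ⟨a, b, hab⟩ := Nat.isCoprime_iff_coprime.2 hN
    have e : (a : ℂ) * N + b * Nat.card C = 1 := by exact_mod_cast congrArg (Int.cast : ℤ → ℂ) hab
    have := ((isIntegral_algebraMap (x := a)).mul h1).add ((isIntegral_algebraMap (x := b)).mul h2)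
    simp only [algebraMap_int_eq, eq_intCast] at this
    rwa [← mul_assoc, ← mul_assoc, ← add_mul, e, one_mul] at this⟩

variable {F : Type*} [Field F]

/-- There is a square root of `δ` among the combinations of characters. -/
def Good (f : Zb →+* F) (δ : C → ℕ) : Prop :=
  ∃ γ : C → Zb, IntGen (fun c => (γ c : ℂ)) ∧ γ 1 = 1 ∧
    (∀ (σ : ℂ ≃+* ℂ) c, ‖σ (γ c)‖ ^ 2 ≤ δ c) ∧ ∀ c, δ c ≠ 1 → f (γ c) = 0

theorem good_one (f : Zb →+* F) : Good f (fun _ : C => 1) :=
  ⟨fun _ => 1, IntGen.of_gen isGeneralizedCharacter_one, rfl, by simp, by simp⟩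

theorem Good.mul {f : Zb →+* F} {δ δ' : C → ℕ} (h : Good f δ) (h' : Good f δ') :
    Good f fun c => δ c * δ' c := by
  obtain ⟨γ, a1, a2, a3, a4⟩ := h
  obtain ⟨γ', b1, b2, b3, b4⟩ := h'
  refine ⟨γ * γ', a1.mul b1, by simp [a2, b2], fun σ c => ?_, fun c hc => ?_⟩
  · rw [Pi.mul_apply, MulMemClass.coe_mul, map_mul, norm_mul, mul_pow, Nat.cast_mul]
    exact mul_le_mul (a3 σ c) (b3 σ c) (by positivity) (by positivity)
  · rw [Pi.mul_apply, map_mul, mul_eq_zero]
    by_contra! H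
    exact hc (by simp only [not_not.1 fun e => H.1 (a4 c e), not_not.1 fun e => H.2 (b4 c e)])

end IntGen

theorem card_le_of_sum_norm {ι : Type*} [Fintype ι] (m : ι → ℂ) (hi : ∀ i, IsIntegral ℤ (m i))
    (h0 : ∀ i, m i ≠ 0) {B : ℕ} (h : ∀ σ : ℂ ≃+* ℂ, ∑ i, ‖σ (m i)‖ ^ 2 ≤ B) : Fintype.card ι ≤ B := by
  by_contra! H
  have hn : (0 : ℝ) < Fintype.card ι := by exact_mod_cast (Nat.zero_le _).trans_lt H
  have key : ∀ σ : ℂ ≃+* ℂ, ‖σ (∏ i, m i)‖ < 1 := fun σ => by
    have h1 := Real.geom_mean_le_arith_mean_weighted Finset.univ (fun _ : ι => (Fintype.card ι : ℝ)⁻¹)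
      (fun i => ‖σ (m i)‖ ^ 2) (fun _ _ => by positivity) (by simp [hn.ne']) (fun _ _ => by positivity)
    rw [← Finset.mul_sum, Real.finset_prod_rpow _ _ (fun _ _ => by positivity)] at h1
    have h2 : (Fintype.card ι : ℝ)⁻¹ * ∑ i, ‖σ (m i)‖ ^ 2 < 1 := by
      rw [inv_mul_lt_iff₀ hn, mul_one]
      exact (h σ).trans_lt (by exact_mod_cast H)
    have h3 := (Real.rpow_lt_one_iff' (by positivity) (by positivity)).1 (h1.trans_lt h2)
    rw [Finset.prod_pow, sq_lt_one_iff₀ (by positivity)] at h3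
    rwa [map_prod, norm_prod]
  rcases eq_zero_or_norm_eq_one_of_forall_norm_le (IsIntegral.prod _ fun i _ => hi i)
    (fun σ => (key σ).le) with h1 | h1
  · exact Finset.prod_ne_zero_iff.2 (fun i _ => h0 i) h1
  · exact (key (RingEquiv.refl ℂ)).ne h1

section Crit

variable {X : Type*} [Group X] [Fintype X] {p : ℕ} [hp : Fact p.Prime] {V G : Subgroup X} [hV : V.Normal] {v : X}

theorem decomp (hidx : ¬ p ∣ V.index) (hab : ∀ a ∈ V, ∀ b ∈ V, a * b = b * a) (hGV : IsComplement' V G)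
    (hv : v ∈ V) (hvp : v ^ p = 1) {c c' : ↥(G ⊓ centralizer {v})} {y : X}
    (h : y * (c * v) * y⁻¹ = c' * v) : ∃ (d : ↥(G ⊓ centralizer {v})) (u : ↥(V ⊓ centralizer {(c : X)})),
      y = d * u ∧ c' = d * c * d⁻¹ := by
  have hc : ∀ c : ↥(G ⊓ centralizer {v}), ((c : X) * v) ^ Nat.card G = v ^ Nat.card G := fun c => by
    have : Commute (c : X) v := mem_centralizer_singleton_iff.1 c.2.2
    rw [this.mul_pow, show (c : X) ^ Nat.card G = 1 from
      congrArg Subtype.val (pow_card_eq_one' (x := (⟨c, c.2.1⟩ : G))), one_mul]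
  have h1 : Commute y (v ^ Nat.card G) := by
    have := congrArg (· ^ Nat.card G) h
    simp only [conj_pow, hc] at this
    exact mul_inv_eq_iff_eq_mul.1 this
  have h2 : Commute y v := by
    obtain ⟨k, hk⟩ := exists_pow_eq_self_of_coprime (x := v) (n := Nat.card G)
      (Nat.Coprime.coprime_dvd_right (orderOf_dvd_of_pow_eq_one hvp)
        ((Nat.Prime.coprime_iff_not_dvd hp.out).2 (hGV.symm.index_eq_card ▸ hidx)).symm)
    exact hk ▸ h1.pow_right k
  have h3 : y * c * y⁻¹ = c' := by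
    rw [← mul_assoc, mul_assoc _ v, h2.inv_left.symm.eq, ← mul_assoc] at h
    exact mul_right_cancel h
  obtain ⟨⟨d, u⟩, rfl⟩ := hGV.symm.2 y
  have hd : (d : X) ∈ centralizer {v} := by
    have : (u : X) ∈ centralizer {v} := mem_centralizer_singleton_iff.2 (hab _ u.2 v hv)
    exact (Subgroup.mul_mem_cancel_right _ this).1 (mem_centralizer_singleton_iff.2 h2)
  have h4 : (u : X) * c * (u : X)⁻¹ * (c : X)⁻¹ = 1 := by
    refine disjoint_def.1 hGV.disjoint ?_ ?_
    · rw [mul_assoc, mul_assoc, ← mul_assoc (c : X)]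
      exact V.mul_mem u.2 (hV.conj_mem _ (V.inv_mem u.2) _)
    · have : (u : X) * c * (u : X)⁻¹ = (d : X)⁻¹ * c' * d := by rw [← h3]; group
      rw [this]
      exact G.mul_mem (G.mul_mem (G.mul_mem (G.inv_mem d.2) c'.2.1) d.2) (G.inv_mem c.2.1)
  have h5 : (u : X) * c = c * u := by rwa [mul_inv_eq_one, mul_inv_eq_iff_eq_mul] at h4
  refine ⟨⟨d, d.2, hd⟩, ⟨u, u.2, mem_centralizer_singleton_iff.2 h5⟩, rfl, Subtype.ext ?_⟩
  change (c' : X) = d * c * (d : X)⁻¹
  rw [← h3, mul_assoc (d : X), h5]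
  group

open Classical in
theorem sum_irr_eq_sum_ite (a b : X) : ∑ χ : IrrCharacter X, (χ : X → ℂ) a * conj ((χ : X → ℂ) b) =
    ∑ y, if y * a * y⁻¹ = b then 1 else 0 := by
  rw [Finset.sum_boole]
  by_cases h : IsConj a b
  · rw [sum_irr_mul_conj_of_isConj h, ← card_conj_fiber h, Nat.card_eq_fintype_card, Fintype.card_subtype]
  · rw [sum_irr_mul_conj_of_not_isConj h, Finset.filter_eq_empty_iff.2 fun y _ e => h (isConj_iff.2 ⟨y, e⟩)]
    simp

theorem sum_norm_le (hidx : ¬ p ∣ V.index) (hab : ∀ a ∈ V, ∀ b ∈ V, a * b = b * a) (hGV : IsComplement' V G)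
    (hv : v ∈ V) (hvp : v ^ p = 1) [Fintype ↥(G ⊓ centralizer {v})] {g : ↥(G ⊓ centralizer {v}) → ℂ}
    (hg : IsClassFunction _ g)
    (hb : ∀ c, ‖g c‖ ^ 2 * Nat.card ↥(V ⊓ centralizer {(c : X)}) ≤ Nat.card V) :
    ∑ χ : IrrCharacter X, ‖∑ c : ↥(G ⊓ centralizer {v}), (χ : X → ℂ) (c * v) * g c‖ ^ 2 ≤
      (Nat.card ↥(G ⊓ centralizer {v}) : ℝ) ^ 2 * Nat.card V := by
  classical
  let N : ↥(G ⊓ centralizer {v}) → ℕ := fun c => (Finset.univ.filter fun t : ↥(G ⊓ centralizer {v}) × X => t.2 * (c * v) * t.2⁻¹ = t.1 * v).card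
  have hN : ∀ c, N c ≤ Nat.card ↥(G ⊓ centralizer {v}) * Nat.card ↥(V ⊓ centralizer {(c : X)}) := fun c => by
    rw [← Nat.card_prod, Nat.card_eq_fintype_card, ← Finset.card_univ]
    refine Finset.card_le_card_of_surjOn (fun s => (s.1 * c * s.1⁻¹, s.1 * s.2)) fun t ht => ?_
    obtain ⟨d, u, h1, h2⟩ := decomp hidx hab hGV hv hvp (Finset.mem_filter.1 ht).2
    exact ⟨(d, u), Finset.mem_coe.2 (Finset.mem_univ _), Prod.ext h2.symm h1.symm⟩
  have h1 : ((∑ χ : IrrCharacter X, ‖∑ c : ↥(G ⊓ centralizer {v}), (χ : X → ℂ) (c * v) * g c‖ ^ 2 : ℝ) : ℂ) =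
      ((∑ c : ↥(G ⊓ centralizer {v}), ‖g c‖ ^ 2 * N c : ℝ) : ℂ) := by
    push_cast
    simp only [← Complex.mul_conj', map_sum, Finset.sum_mul_sum]
    rw [Finset.sum_comm]
    refine Finset.sum_congr rfl fun c _ => ?_
    rw [Finset.sum_comm, ← Finset.sum_boole, Fintype.sum_prod_type, Finset.mul_sum]
    refine Finset.sum_congr rfl fun c' _ => ?_
    rw [Finset.sum_congr rfl fun (χ : IrrCharacter X) _ => show _ = (g c * conj (g c')) *
      ((χ : X → ℂ) (c * v) * conj ((χ : X → ℂ) (c' * v))) by rw [map_mul]; ring, ← Finset.mul_sum,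
      sum_irr_eq_sum_ite, Finset.mul_sum, Finset.mul_sum]
    refine Finset.sum_congr rfl fun y _ => ?_
    split_ifs with h
    · obtain ⟨d, u, -, rfl⟩ := decomp hidx hab hGV hv hvp h
      rw [hg.conj_apply]
    · simp
  rw [Complex.ofReal_injective h1]
  calc _ ≤ ∑ _c : ↥(G ⊓ centralizer {v}), (Nat.card ↥(G ⊓ centralizer {v}) : ℝ) * Nat.card V := Finset.sum_le_sum fun c _ => by
        refine (mul_le_mul_of_nonneg_left (Nat.cast_le.2 (hN c)) (by positivity)).trans ?_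
        rw [Nat.cast_mul, mul_left_comm]
        exact mul_le_mul_of_nonneg_left (hb c) (by positivity)
    _ = _ := by rw [Finset.sum_const, Finset.card_univ, ← Nat.card_eq_fintype_card, nsmul_eq_mul]; ring

omit hp hV in
theorem isIntegral_inner [Fintype ↥(G ⊓ centralizer {v})] {g : ↥(G ⊓ centralizer {v}) → ℂ} (hg : IntGen g)
    {χ : X → ℂ} (hχ : IsCharacter X χ) : IsIntegral ℤ ((Nat.card ↥(G ⊓ centralizer {v}) : ℂ)⁻¹ *
      ∑ c : ↥(G ⊓ centralizer {v}), χ (c * v) * g c) := by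
  let K := centralizer ({v} : Set X)
  let w : K := ⟨v, mem_centralizer_singleton_iff.2 rfl⟩
  let ι : ↥(G ⊓ centralizer {v}) →* K := inclusion inf_le_right
  refine (hχ.restrict K).induction_on (P := fun θ : K → ℂ => IsIntegral ℤ
    ((Nat.card ↥(G ⊓ centralizer {v}) : ℂ)⁻¹ * ∑ c, θ (ι c * w) * g c)) (by simpa using isIntegral_zero) ?_
  intro ψ φ hψ _ ih
  simp only [Pi.add_apply, add_mul, Finset.sum_add_distrib, mul_add]
  refine IsIntegral.add ?_ ih
  have hw : w ∈ charCenter ψ := hψ.center_le_charCenter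
    (mem_center_iff.2 fun k => Subtype.ext (mem_centralizer_singleton_iff.1 k.2))
  obtain ⟨ω, h1, h2⟩ := hψ.isCharacter.exists_scalar_of_norm_eq (hψ.isCharacter.mem_charCenter_iff.1 hw)
  have := (isIntegral_of_pow_eq_one (orderOf_pos w).ne' h1).mul (hg.2 _ (hψ.isCharacter.comp ι))
  rw [classInner_one_right, mul_left_comm, Finset.mul_sum] at this
  convert this using 3 with c
  rw [hψ.isClassFunction.mul_comm, h2, mul_assoc]
  rfl

/-- Knörr's criterion. -/
theorem crit (hidx : ¬ p ∣ V.index) (hab : ∀ a ∈ V, ∀ b ∈ V, a * b = b * a) (hGV : IsComplement' V G)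
    (hv : v ∈ V) (hvp : v ^ p = 1) [Fintype ↥(G ⊓ centralizer {v})] {F : Type*} [Field F] [CharP F p]
    {f : Zb →+* F} {δ : ↥(G ⊓ centralizer {v}) → ℕ} (h : Good f δ) (h1 : ∀ c, δ c = 1 → c = 1)
    (h2 : ∀ c, δ c * Nat.card ↥(V ⊓ centralizer {(c : X)}) ≤ Nat.card V) :
    Nat.card (ConjClasses X) ≤ Nat.card V := by
  classical
  obtain ⟨γ, a1, a2, a3, a4⟩ := h
  haveI := Fintype.ofFinite V
  have hC := card_ne_zero_complex ↥(G ⊓ centralizer {v})
  rw [← card_irr_eq_card_conjClasses, Nat.card_eq_fintype_card]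
  refine card_le_of_sum_norm (fun χ : IrrCharacter X => (Nat.card ↥(G ⊓ centralizer {v}) : ℂ)⁻¹ * ∑ c : ↥(G ⊓ centralizer {v}), (χ : X → ℂ) (c * v) * γ c)
    (fun χ => isIntegral_inner a1 χ.2.isCharacter) (fun χ h0 => ?_) fun σ => ?_
  · have hχ := χ.2.isGeneralizedCharacter
    have e : ∑ c : ↥(G ⊓ centralizer {v}), (⟨_, hχ.isIntegral (c * v)⟩ : Zb) * γ c = 0 := Subtype.ext (by
      simpa using (mul_eq_zero.1 h0).resolve_left (inv_ne_zero hC))
    have e2 := congrArg f e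
    rw [map_sum, Finset.sum_eq_single 1 (fun c _ hc => by rw [map_mul, a4 c fun e => hc (h1 c e), mul_zero])
      (by simp), a2, mul_one, map_zero] at e2
    simp only [OneMemClass.coe_one, one_mul] at e2
    rw [map_apply_eq_of_pow f hχ (k := 1) (by simpa using hvp)] at e2
    have e3 : (⟨_, hχ.isIntegral 1⟩ : Zb) = (charDegree (χ : X → ℂ) : ℕ) :=
      Subtype.ext (by simpa using χ.2.apply_one_eq)
    rw [e3, map_natCast, CharP.cast_eq_zero_iff F p] at e2
    exact hidx (e2.trans (charDegree_dvd_index_of_comm V χ.2 hab))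
  · let τ : IrrCharacter X → IrrCharacter X := fun χ => ⟨_, χ.2.map_ringEquiv σ⟩
    have hτ : Function.Bijective τ := Finite.injective_iff_bijective.1 fun a b e =>
      Subtype.ext (funext fun x => σ.injective (congrFun (congrArg Subtype.val e) x))
    have h3 := sum_norm_le hidx hab hGV hv hvp (g := fun c => σ (γ c)) (a1.1.map σ) fun c =>
      (mul_le_mul_of_nonneg_right (a3 σ c) (by positivity)).trans (by exact_mod_cast h2 c)
    rw [← hτ.sum_comp] at h3
    simp only [map_mul, map_inv₀, map_natCast, map_sum, norm_mul, mul_pow, ← Finset.mul_sum, norm_inv,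
      Complex.norm_natCast]
    rw [inv_pow, inv_mul_le_iff₀ (by have := Nat.card_pos (α := ↥(G ⊓ centralizer {v})); positivity)]
    exact h3

end Crit

end Cfsg.Lib.KGV
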