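import Cfsg.Agent.Lib.KGV.Crit
import Cfsg.Agent.Lib.PLocal.ElemAbRep

/-! Knörr's generalized character for abelian groups, through Gauss sums. -/

set_option autoImplicit false

namespace Cfsg.Lib.KGV

open Cfsg.Lib.Char Cfsg.Lib.Clifford Module LinearMap
open scoped ComplexConjugate

universe u

variable {C : Type*} [Group C] [Fintype C] {p : ℕ} [hp : Fact p.Prime] {F : Type*} [Field F] [CharP F p]
  {f : Zb →+* F}

omit hp [CharP F p] in
theorem Good.mono {δ δ' : C → ℕ} (h : Good f δ) (h1 : ∀ c, δ c ≤ δ' c) (h2 : ∀ c, δ c = 1 → δ' c = 1) :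
    Good f δ' := by
  obtain ⟨γ, a1, a2, a3, a4⟩ := h
  exact ⟨γ, a1, a2, fun σ c => (a3 σ c).trans (Nat.cast_le.2 (h1 c)), fun c hc => a4 c fun e => hc (h2 c e)⟩

variable (f) in
theorem exists_lift {R : Type*} [AddCommGroup R] (h : ∀ x : R, p • x = 0) (ψ : AddChar R ℂ) :
    ∃ a : R → Zb, (∀ x, (a x : ℂ) = ψ x) ∧ ∀ x, f (a x) = 1 := by
  have h1 : ∀ x, ψ x ^ p = 1 := fun x => by rw [← AddChar.map_nsmul_eq_pow, h, AddChar.map_zero_eq_one]
  refine ⟨fun x => ⟨ψ x, isIntegral_of_pow_eq_one hp.out.ne_zero (h1 x)⟩, fun _ => rfl, fun x =>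
    eq_one_of_pow_charP (p := p) (k := 1) ?_⟩
  rw [pow_one, ← map_pow, ← map_one f]
  exact congrArg f (Subtype.ext (h1 x))

theorem norm_gaussSum {R : Type*} [Field R] [Fintype R] {χ : MulChar R ℂ} (hχ : χ ≠ 1) {ψ : AddChar R ℂ}
    (hψ : ψ ≠ 1) : ‖gaussSum χ ψ‖ ^ 2 = Fintype.card R := by
  have := gaussSum_mul_gaussSum_eq_card hχ (AddChar.IsPrimitive.of_ne_one hψ)
  rw [← star_gaussSum_eq, Complex.star_def, Complex.mul_conj'] at this
  exact_mod_cast this

open Classical in
theorem good_field {R : Type*} [Field R] [Fintype R] (hR : ∀ x : R, p • x = 0) (φ : C →* Rˣ) :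
    Good f fun c => if φ c = 1 then 1 else Fintype.card R := by
  have : NeZero (Monoid.exponent Rˣ : ℂ) := ⟨by exact_mod_cast Monoid.exponent_ne_zero_of_finite⟩
  obtain ⟨e⟩ := MulChar.mulEquiv_units R ℂ
  let lam : C →* MulChar R ℂ := e.symm.toMonoidHom.comp φ
  have hlam : ∀ c, lam c = 1 ↔ φ c = 1 := fun c => e.symm.map_eq_one_iff
  let ψ := AddChar.FiniteField.primitiveChar_to_Complex R
  have hψ : ψ ≠ 1 := by
    simpa using AddChar.FiniteField.primitiveChar_to_Complex_isPrimitive R (one_ne_zero (α := R))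
  obtain ⟨a, ha, ha'⟩ := exists_lift f hR ψ
  have hx : ∀ x : R, IsCharacter C fun c => lam c x := fun x => by
    by_cases h : x = 0
    · simp only [h, MulChar.map_zero]
      exact isCharacter_zero
    · exact (isIrrCharacter_of_map_mul (by simp [MulChar.one_apply (Ne.isUnit h)]) (by simp)).isCharacter
  let b : C → R → Zb := fun c x => ⟨lam c x, (hx x).isIntegral c⟩
  have hγ : ∀ c, ((-∑ x, b c x * a x : Zb) : ℂ) = -gaussSum (lam c) ψ := fun c => by simp [gaussSum, b, ha]
  have hσ : ∀ (σ : ℂ ≃+* ℂ) c, σ (gaussSum (lam c) ψ) =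
      gaussSum ((lam c).ringHomComp σ.toRingHom) (σ.toRingHom.toMonoidHom.compAddChar ψ) := fun σ c => by
    simp [gaussSum]
  refine ⟨fun c => -∑ x, b c x * a x, ?_, Subtype.ext ?_, fun σ c => ?_, fun c hc => ?_⟩
  · have : (fun c => ((-∑ x, b c x * a x : Zb) : ℂ)) = ∑ x, (-ψ x) • fun c => lam c x := by
      funext c
      simp [b, ha, mul_comm]
    rw [this]
    exact IntGen.sum _ fun x _ => (IntGen.of_gen (hx x).isGeneralizedCharacter).smul (ha x ▸ (a x).2).neg
  · rw [hγ, map_one, gaussSum_one_left hψ]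
    simp
  · rw [hγ, map_neg, norm_neg]
    dsimp only
    split_ifs with h
    · rw [(hlam c).2 h, gaussSum_one_left hψ]
      simp
    · rw [hσ, norm_gaussSum ((MulChar.ringHomComp_ne_one_iff σ.injective).2 (mt (hlam c).1 h))]
      obtain ⟨x, hx⟩ := AddChar.ne_one_iff.1 hψ
      exact AddChar.ne_one_iff.2 ⟨x, by simpa using hx⟩
  · have h : φ c ≠ 1 := fun e => hc (if_pos e)
    have : ∑ x, b c x = 0 := Subtype.ext (by
      simpa [b] using MulChar.sum_eq_zero_of_ne_one (mt (hlam c).1 h))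
    simp only [map_neg, map_sum, map_mul, ha', mul_one]
    rw [← map_sum, this, map_zero, neg_zero]

section Mod

variable {M : Type u} [AddCommGroup M] [Module (ZMod p) M] (ρ : Representation (ZMod p) C M)

/-- The index of the fixed points of `c`. -/
noncomputable def dl (c : C) : ℕ := (ker (ρ c - 1)).toAddSubgroup.index

omit [Fintype C] in
theorem dl_eq_one {c : C} : dl ρ c = 1 ↔ ρ c = 1 := by
  rw [dl, AddSubgroup.index_eq_one, Submodule.toAddSubgroup_eq_top, ker_eq_top, sub_eq_zero]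

omit [Fintype C] in
theorem dl_glue {X Y : Submodule (ZMod p) M} (h : IsCompl X Y) (hX : ∀ g, X ≤ X.comap (ρ g))
    (hY : ∀ g, Y ≤ Y.comap (ρ g)) (c : C) :
    dl ρ c = dl (ρ.subrepresentation X hX) c * dl (ρ.subrepresentation Y hY) c := by
  rw [dl, dl, dl, ← AddSubgroup.index_prod, ← AddSubgroup.index_comap_of_surjective _
    (f := (X.prodEquivOfIsCompl Y h).toAddEquiv.toAddMonoidHom) (X.prodEquivOfIsCompl Y h).surjective]
  congr 1
  ext ⟨x, y⟩
  change (ρ c - 1) (x + y : M) = 0 ↔ (ρ.subrepresentation X hX c - 1) x = 0 ∧ (ρ.subrepresentation Y hY c - 1) y = 0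
  rw [← (X.prodEquivOfIsCompl Y h).map_eq_zero_iff.trans Prod.mk_eq_zero, map_add]
  rfl

variable [Finite M]

theorem good_irr (hab : ∀ a b : C, a * b = b * a) [Nontrivial M]
    (hirr : ∀ U : Submodule (ZMod p) M, (∀ g, U ≤ U.comap (ρ g)) → U = ⊥ ∨ U = ⊤) : Good f (dl ρ) := by
  classical
  let R := Subalgebra.centralizer (ZMod p) (Set.range ρ)
  have hk : ∀ r : R, r ≠ 0 → ker r.1 = ⊥ := fun r hr => (hirr _ fun g x hx => by
    have := LinearMap.congr_fun (r.2 _ ⟨g, rfl⟩) x
    simp only [End.mul_apply, mem_ker.1 hx, map_zero] at this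
    exact this.symm).resolve_right fun e => hr (Subtype.ext (ker_eq_top.1 e))
  have : Finite (End (ZMod p) M) := Finite.of_injective _ DFunLike.coe_injective
  have : NoZeroDivisors R := ⟨fun {a b} h => by
    by_contra! H
    refine H.2 (Subtype.ext (LinearMap.ext fun x => ker_eq_bot'.1 (hk a H.1) _ ?_))
    exact LinearMap.congr_fun (congrArg Subtype.val h) x⟩
  have : IsDomain R := NoZeroDivisors.to_isDomain R
  letI := (Finite.isDomain_to_isField R).toField
  have := Fintype.ofFinite R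
  let φ : C →* R := (ρ : C →* End (ZMod p) M).codRestrict R fun c => by
    rintro _ ⟨g, rfl⟩
    rw [← map_mul, ← map_mul, hab]
  have h1 : ∀ c, φ.toHomUnits c = 1 ↔ ρ c = 1 := fun c => Units.ext_iff.trans Subtype.ext_iff
  refine (good_field (R := R) (fun x => by
    rw [← Nat.cast_smul_eq_nsmul (ZMod p), ZMod.natCast_self, zero_smul]) φ.toHomUnits).mono (fun c => ?_) fun c hc => ?_
  · split_ifs with h
    · exact ((dl_eq_one ρ).2 ((h1 c).1 h)).ge
    · have := hk (φ c - 1) fun e => h (Units.ext (sub_eq_zero.1 e))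
      obtain ⟨v, hv⟩ := exists_ne (0 : M)
      rw [dl, show ker (ρ c - 1) = ⊥ from this, Submodule.bot_toAddSubgroup, AddSubgroup.index_bot,
        ← Nat.card_eq_fintype_card]
      refine Nat.card_le_card_of_injective (fun r => r.1 v) fun r s e => ?_
      by_contra hne
      exact hv (ker_eq_bot'.1 (hk (r - s) (sub_ne_zero.2 hne)) v (sub_eq_zero.2 e))
  · split_ifs at hc with h
    · exact (dl_eq_one ρ).2 ((h1 c).1 h)
    · exact absurd hc Fintype.one_lt_card.ne'

end Mod

theorem good_comm (hab : ∀ a b : C, a * b = b * a) (hcop : ¬ p ∣ Nat.card C) (n : ℕ) :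
    ∀ {M : Type u} [AddCommGroup M] [Module (ZMod p) M] [Finite M] (ρ : Representation (ZMod p) C M),
      finrank (ZMod p) M = n → Good f (dl ρ) := by
  induction n using Nat.strong_induction_on with | _ n ih
  intro M _ _ _ ρ hn
  have : NeZero (Nat.card C : ZMod p) := ⟨by rwa [Ne, CharP.cast_eq_zero_iff (ZMod p) p]⟩
  rcases subsingleton_or_nontrivial M with h | h
  · exact (good_one f).mono (fun c => ((dl_eq_one ρ).2 (Subsingleton.elim _ _)).ge)
      fun c _ => (dl_eq_one ρ).2 (Subsingleton.elim _ _)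
  by_cases H : ∀ U : Submodule (ZMod p) M, (∀ g, U ≤ U.comap (ρ g)) → U = ⊥ ∨ U = ⊤
  · exact good_irr ρ hab H
  push Not at H
  obtain ⟨X, hX, h1, h2⟩ := H
  obtain ⟨⟨Y, hY⟩, hc⟩ := exists_isCompl (⟨X, fun g _ hv => hX g hv⟩ : Subrepresentation ρ)
  replace hc : IsCompl X Y :=
    ⟨disjoint_iff.2 (congrArg Subrepresentation.toSubmodule hc.inf_eq_bot),
      codisjoint_iff.2 (congrArg Subrepresentation.toSubmodule hc.sup_eq_top)⟩
  replace hY : ∀ g, Y ≤ Y.comap (ρ g) := fun g _ hv => hY g hv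
  rw [funext (dl_glue ρ hc hX hY)]
  exact (ih _ (hn ▸ Submodule.finrank_lt h2) _ rfl).mul
    (ih _ (hn ▸ Submodule.finrank_lt fun e => h1 (by simpa [e] using hc.disjoint)) _ rfl)

section Link

open Subgroup PLocal

variable {X : Type*} [Group X] [Finite X] {U C : Subgroup X} (e : ElemAbCoord p U)
  (hC : C ≤ normalizer (U : Set X))

/-- The representation on an elementary abelian subgroup. -/
noncomputable def rep : Representation (ZMod p) C (Fin e.n → ZMod p) :=
  (Matrix.toLinAlgEquiv' (R := ZMod p) (n := Fin e.n)).toAlgHom.toMonoidHom.comp (e.ρ.comp (inclusion hC))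

omit [Finite X] in
theorem e_rep (c : C) (u : Fin e.n → ZMod p) : e.e (rep e hC c u) = c * e.e u * (c : X)⁻¹ :=
  e.conj (inclusion hC c) u

omit [Finite X] in
theorem dl_rep (c : C) : dl (rep e hC) c * Nat.card ↥(U ⊓ centralizer {(c : X)}) = Nat.card U := by
  have h1 : Nat.card (Fin e.n → ZMod p) = Nat.card U := Nat.card_congr (Equiv.ofBijective
    (fun u => ⟨e.e u, e.mem u⟩) ⟨fun a b h => e.inj (congrArg Subtype.val h), fun x =>
      ((e.mem_iff x).1 x.2).imp fun _ h => Subtype.ext h⟩)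
  have h2 : ∀ u, u ∈ (ker (rep e hC c - 1)).toAddSubgroup ↔ e.e u ∈ centralizer {(c : X)} := fun u => by
    rw [mem_centralizer_singleton_iff, eq_comm, ← mul_inv_eq_iff_eq_mul, ← e_rep e hC, e.inj.eq_iff]
    exact sub_eq_zero
  have h3 := AddSubgroup.index_mul_card (ker (rep e hC c - 1)).toAddSubgroup
  rw [← h1, ← h3, dl]
  refine congrArg _ (Nat.card_congr (Equiv.ofBijective
    (fun u : (ker (rep e hC c - 1)).toAddSubgroup =>
      (⟨e.e u, e.mem u, (h2 u).1 u.2⟩ : ↥(U ⊓ centralizer {(c : X)})))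
    ⟨fun a b h => Subtype.ext (e.inj (congrArg Subtype.val h)), fun x => ?_⟩)).symm
  obtain ⟨u, hu⟩ := (e.mem_iff x).1 x.2.1
  exact ⟨⟨u, (h2 u).2 (hu ▸ x.2.2)⟩, Subtype.ext hu⟩

end Link

end Cfsg.Lib.KGV
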