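import Cfsg.Agent.Lib.KGV.Gauss
import Cfsg.Agent.Lib.CharDeg.PermChar
import Cfsg.Agent.Lib.CharDeg.Weil

/-! Gow's generalized character for orthogonal modules. -/

set_option autoImplicit false

namespace Cfsg.Lib.KGV

open Cfsg.Lib.Char Cfsg.Lib.Clifford Cfsg.Lib.Perm Module LinearMap
open scoped ComplexConjugate

universe u

variable {C : Type*} [Group C] [Fintype C] {p : ℕ} [hp : Fact p.Prime] {F : Type*} [Field F] [CharP F p]
  {f : Zb →+* F}

open scoped IsMulCommutative in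
theorem isIntegral_mul_of_commute {A : Type*} [Ring A] {x y : A} (h : Commute x y) (hx : IsIntegral ℤ x)
    (hy : IsIntegral ℤ y) : IsIntegral ℤ (x * y) := by
  have := Algebra.isMulCommutative_adjoin ℤ (s := {x, y}) (by
    rintro _ (rfl | rfl) _ (rfl | rfl)
    exacts [rfl, h, h.symm, rfl])
  have e : ∀ z : Algebra.adjoin ℤ {x, y}, IsIntegral ℤ z.1 ↔ IsIntegral ℤ z := fun z =>
    isIntegral_algHom_iff (Algebra.adjoin ℤ {x, y}).val Subtype.val_injective
  exact (e (⟨x, Algebra.subset_adjoin (by simp)⟩ * ⟨y, Algebra.subset_adjoin (by simp)⟩)).2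
    (((e _).1 hx).mul ((e _).1 hy))

theorem intGen_trace {V : Type*} [AddCommGroup V] [Module ℂ V] [FiniteDimensional ℂ V]
    (σ : Representation ℂ C V) (T : End ℂ V) (hT : ∀ c, T * σ c = σ c * T) (hi : IsIntegral ℤ T) :
    IntGen fun c => trace ℂ V (T * σ c) := by
  refine ⟨fun g h => ?_, ?_⟩
  · simp only [map_mul]
    rw [← mul_assoc, trace_mul_comm, ← mul_assoc, ← mul_assoc, ← hT, mul_assoc T, ← map_mul, inv_mul_cancel,
      map_one, mul_one]
  rintro _ ⟨n, ρ, rfl⟩
  let τ := σ.tprod ρ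
  let P : End ℂ _ := (Nat.card C : ℂ)⁻¹ • ∑ c, τ c
  have h0 := card_ne_zero_complex C
  have h1 : ∀ c, τ c * P = P := fun c => by
    simp only [P, mul_smul_comm, Finset.mul_sum, ← map_mul]
    exact congrArg _ (Fintype.sum_equiv (Equiv.mulLeft c) _ _ fun _ => rfl)
  have h2 : P * P = P := by
    change ((Nat.card C : ℂ)⁻¹ • ∑ c, τ c) * P = P
    rw [smul_mul_assoc, Finset.sum_mul, Finset.sum_congr rfl fun c _ => h1 c, Finset.sum_const,
      Finset.card_univ, ← Nat.card_eq_fintype_card, ← Nat.cast_smul_eq_nsmul ℂ, smul_smul, inv_mul_cancel₀ h0,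
      one_smul]
  let T' := End.rTensorAlgHom ℂ V (Fin n → ℂ) T
  have h3 : ∀ c, T' * τ c = TensorProduct.map (T * σ c) (ρ c) := fun c =>
    (TensorProduct.map_mul T (σ c) 1 (ρ c)).symm
  have h4 : ∀ c, Commute T' (τ c) := fun c => by
    rw [Commute, SemiconjBy, h3, hT]
    exact TensorProduct.map_mul (σ c) T (ρ c) 1
  have h5 : IsIntegral ℤ P := ⟨Polynomial.X ^ 2 - Polynomial.X, Polynomial.monic_X_pow_sub (by simp), by
    simp [sq, h2]⟩
  have := PermChar.isIntegral_trace (isIntegral_mul_of_commute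
    ((Commute.sum_right _ _ _ fun c _ => h4 c).smul_right _) (map_isIntegral_int _ hi) h5)
  rw [classInner_one_right]
  simpa only [mul_smul_comm, Finset.mul_sum, map_smul, map_sum, h3, trace_tensorProduct', smul_eq_mul,
    mul_comm, Pi.mul_apply, Representation.character] using this

theorem intGen_kernel {Ω : Type*} [Fintype Ω] [MulAction C Ω] (k : Ω → Ω → Zb)
    (hk : ∀ (c : C) x y, k (c • x) (c • y) = k x y) : IntGen fun c : C => ∑ w, (k w (c • w) : ℂ) := by
  classical
  have := intGen_trace (permRep ℂ C Ω) (kernelMap fun x y => (k x y : ℂ))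
    (fun c => LinearMap.ext fun v => kernelMap_permRep (fun g y x => by rw [hk]) c v) (by
      have h := map_isIntegral_int Matrix.toLinAlgEquiv' (map_isIntegral_int Zb.val.toRingHom.mapMatrix
        (isIntegral_trans (R := ℤ) _ (Matrix.isIntegral (Matrix.of k))))
      exact h)
  convert this using 2 with c
  rw [CharDeg.trace_fun]
  exact Finset.sum_congr rfl fun w _ => by rw [End.mul_apply, permRep_single, kernelMap_single]

omit [Fintype C] hp in
theorem exists_inv_gen {π : C → ℂ} (hπ : IsGeneralizedCharacter C π) : ∀ d : ℕ, ∃ (N : ℕ) (θ : C → ℂ),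
    IsGeneralizedCharacter C θ ∧ ∀ c, ∏ j ∈ Finset.range d, ((p : ℂ) ^ j - π c) = p ^ N - θ c * π c
  | 0 => ⟨0, 0, isGeneralizedCharacter_zero, by simp⟩
  | d + 1 => by
    obtain ⟨N, θ, h1, h2⟩ := exists_inv_gen hπ d
    refine ⟨N + d, ((p ^ N : ℕ) : ℂ) • (fun _ => 1) + ((p ^ d : ℕ) : ℂ) • θ - θ * π,
      ((isGeneralizedCharacter_one.natCast_smul _).add (h1.natCast_smul _)).sub (h1.mul hπ), fun c => ?_⟩
    rw [Finset.prod_range_succ, h2]
    simp
    ring

section Mod

variable {M : Type u} [AddCommGroup M] [Module (ZMod p) M] [Finite M] (ρ : Representation (ZMod p) C M)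

/-- The number of fixed points. -/
noncomputable def fx (c : C) : ℕ := Nat.card (ker (ρ c - 1))

omit [Fintype C] [Finite M] in
theorem dl_mul_fx (c : C) : dl ρ c * fx ρ c = Nat.card M := AddSubgroup.index_mul_card _

omit [Fintype C] in
theorem fx_ne (c : C) : (fx ρ c : ℂ) ≠ 0 := Nat.cast_ne_zero.2 Nat.card_pos.ne'

omit [Fintype C] in
theorem isCharacter_fx : IsCharacter C fun c => (fx ρ c : ℂ) := by
  let _ := MulAction.compHom M (ρ : C →* End (ZMod p) M)
  convert isCharacter_card_fixedBy (G := C) M using 3 with c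
  exact Nat.card_congr (Equiv.subtypeEquivRight fun x => sub_eq_zero)

omit [Fintype C] in
theorem cast_dl {c : C} (h : dl ρ c ≠ 1) : (dl ρ c : F) = 0 := by
  have h1 : dl ρ c ∣ p ^ finrank (ZMod p) M :=
    ⟨_, by rw [dl_mul_fx, Module.natCard_eq_pow_finrank (K := ZMod p), Nat.card_zmod]⟩
  obtain ⟨_ | j, -, e⟩ := (Nat.dvd_prime_pow hp.out).1 h1
  · exact absurd e h
  · simp [e]

theorem intGen_div (hcop : ¬ p ∣ Nat.card C) {ω : C → ℂ} (hω : IntGen ω) (γ : C → Zb)
    (h : ∀ c, γ c * (fx ρ c : ℂ) = ω c) : IntGen fun c => (γ c : ℂ) := by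
  obtain ⟨N, θ, h1, h2⟩ := exists_inv_gen (p := p) (isCharacter_fx ρ).isGeneralizedCharacter
    (finrank (ZMod p) M + 1)
  refine IntGen.of_coprime (N := p ^ N) (((Nat.Prime.coprime_iff_not_dvd hp.out).2 hcop).pow_left N)
    (fun g x => mul_right_cancel₀ (fx_ne ρ g) ?_) (fun c => (γ c).2) ?_
  · rw [h, ← hω.1 g x, ← h]
    exact congrArg _ ((isCharacter_fx ρ).isClassFunction g x).symm
  · convert (IntGen.of_gen h1).mul hω using 1
    funext c
    have h3 := h2 c
    rw [Finset.prod_eq_zero (i := finrank (ZMod p) (ker (ρ c - 1))) (Finset.mem_range.2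
      (Nat.lt_succ_of_le (Submodule.finrank_le _))) (by
        rw [fx, Module.natCard_eq_pow_finrank (K := ZMod p), Nat.card_zmod]; simp), eq_comm, sub_eq_zero] at h3
    rw [Pi.smul_apply, Pi.mul_apply, ← h, smul_eq_mul, Nat.cast_pow, h3]
    ring

omit [Fintype C] [Finite M] in
theorem fix_of_sq (hcop : ¬ p ∣ Nat.card C) {c : C} {u : M} (h : ρ c u + ρ c⁻¹ u = u + u) : ρ c u = u := by
  have h1 : ρ c (ρ c u - u) = ρ c u - u := by
    have := congrArg (ρ c) h
    rw [map_add, map_add, ← End.mul_apply (ρ c) (ρ c⁻¹), ← map_mul, mul_inv_cancel, map_one, End.one_apply] at this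
    rw [map_sub]
    rw [sub_eq_sub_iff_add_eq_add, this]
  have h2 : ∀ k : ℕ, ρ (c ^ k) u = u + k • (ρ c u - u) := fun k => by
    induction k with
    | zero => simp
    | succ k ih => rw [pow_succ', map_mul, End.mul_apply, ih, map_add, map_nsmul, h1, succ_nsmul]; abel
  have h3 := h2 (Nat.card C)
  rw [pow_card_eq_one', map_one, End.one_apply, left_eq_add, ← Nat.cast_smul_eq_nsmul (ZMod p),
    smul_eq_zero, CharP.cast_eq_zero_iff (ZMod p) p] at h3
  exact sub_eq_zero.1 (h3.resolve_left hcop)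

omit [Finite M] in
theorem sum_bilin [Fintype M] [DecidableEq M] {B : LinearMap.BilinForm (ZMod p) M} (hB : B.Nondegenerate)
    {ψ : AddChar (ZMod p) ℂ} (hψ : ψ ≠ 1) (y : M) : ∑ w, ψ (B w y) = if y = 0 then (Nat.card M : ℂ) else 0 := by
  split_ifs with h
  · simp [h]
  obtain ⟨w, hw⟩ : ∃ w, B w y ≠ 0 := by
    by_contra! H
    exact h (hB.2 y H)
  obtain ⟨t, ht⟩ := AddChar.ne_one_iff.1 hψ
  exact AddChar.sum_eq_zero_of_ne_one (ψ := ψ.compAddMonoidHom (B.flip y).toAddMonoidHom)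
    (AddChar.ne_one_iff.2 ⟨(t / B w y) • w, by simpa [hw] using ht⟩)

theorem out_add_bijective {A : Type*} [AddGroup A] (H : AddSubgroup A) :
    Function.Bijective fun t : (A ⧸ H) × H => t.1.out + (t.2 : A) := by
  refine ⟨fun s t h => ?_, fun x => ?_⟩
  · have h1 : s.1 = t.1 := by simpa using congrArg (QuotientAddGroup.mk (s := H)) h
    exact Prod.ext h1 (Subtype.ext (by simpa [h1] using h))
  · obtain ⟨h, e⟩ := QuotientAddGroup.mk_out_eq_mul H x
    exact ⟨((x : A ⧸ H), -h), by simp [e]⟩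

theorem good_sym (hcop : ¬ p ∣ Nat.card C) {B : LinearMap.BilinForm (ZMod p) M} (hB : B.Nondegenerate)
    (hs : ∀ x y, B x y = B y x) (hi : ∀ c x y, B (ρ c x) (ρ c y) = B x y) : Good f (dl ρ) := by
  classical
  have := Fintype.ofFinite M
  let q : C → M → ZMod p := fun c w => B w (ρ c w) - B w w
  have hadj : ∀ c x y, B x (ρ c y) = B y (ρ c⁻¹ x) := fun c x y => by
    rw [← hi c y, ← End.mul_apply, ← map_mul, mul_inv_cancel, map_one, End.one_apply, hs]
  have hq : ∀ c w u, q c (w + u) = q c w + q c u + B w (ρ c u + ρ c⁻¹ u - (u + u)) := fun c w u => by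
    simp only [q, map_add, map_sub, LinearMap.add_apply, hadj c u w, hs u w]
    ring
  have hK : ∀ c u, u ∈ ker (ρ c - 1) ↔ ρ c u + ρ c⁻¹ u - (u + u) = 0 := fun c u => by
    refine sub_eq_zero.trans ⟨fun h => ?_, fun h => fix_of_sq ρ hcop (sub_eq_zero.1 h)⟩
    replace h : ρ c u = u := h
    have : ρ c⁻¹ u = u := by
      conv_lhs => rw [← h, ← End.mul_apply, ← map_mul, inv_mul_cancel, map_one, End.one_apply]
    rw [h, this, sub_self]
  have hq0 : ∀ c u, u ∈ ker (ρ c - 1) → q c u = 0 := fun c u h => by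
    simp only [q, show ρ c u = u from sub_eq_zero.1 h, sub_self]
  have hnorm : ∀ ψ : AddChar (ZMod p) ℂ, ψ ≠ 1 → ∀ c, ‖∑ w, ψ (q c w)‖ ^ 2 = fx ρ c * Nat.card M := fun ψ hψ c => by
    apply Complex.ofReal_injective
    push_cast
    rw [← Complex.mul_conj', map_sum, Finset.sum_mul_sum, Finset.sum_comm]
    have e : ∀ w, ∑ x, ψ (q c x) * conj (ψ (q c w)) = ∑ u, ψ (q c u) * ψ (B w (ρ c u + ρ c⁻¹ u - (u + u))) :=
      fun w => (Fintype.sum_equiv (Equiv.addLeft w) _ _ fun u => by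
        rw [← AddChar.map_neg_eq_conj, ← AddChar.map_add_eq_mul, ← AddChar.map_add_eq_mul, Equiv.coe_addLeft, hq]
        congr 1
        ring).symm
    rw [Finset.sum_congr rfl fun w _ => e w, Finset.sum_comm]
    simp only [← Finset.mul_sum, sum_bilin hB hψ, ← hK]
    rw [Finset.sum_congr rfl (g := fun u => if u ∈ ker (ρ c - 1) then (Nat.card M : ℂ) else 0) fun u _ => by
      split_ifs with h
      · rw [hq0 c u h, AddChar.map_zero_eq_one, one_mul]
      · rw [mul_zero], ← Finset.sum_filter, Finset.sum_const, nsmul_eq_mul, fx, Nat.card_eq_fintype_card (α := ker _),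
      Fintype.card_subtype]
  obtain ⟨a, ha, ha'⟩ := exists_lift (p := p) f (fun x => by simp) (ZMod.stdAddChar (N := p))
  have hψ : ZMod.stdAddChar (N := p) ≠ 1 := by simpa using ZMod.isPrimitive_stdAddChar p one_ne_zero
  let γ : C → Zb := fun c => ∑ x : M ⧸ (ker (ρ c - 1)).toAddSubgroup, a (q c x.out)
  have hγ : ∀ c, (γ c : ℂ) * fx ρ c = ∑ w, (a (q c w) : ℂ) := fun c => by
    rw [← (out_add_bijective (ker (ρ c - 1)).toAddSubgroup).sum_comp, Fintype.sum_prod_type]
    simp only [γ, AddSubmonoidClass.coe_finset_sum, Finset.sum_mul]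
    refine Finset.sum_congr rfl fun x _ => ?_
    rw [Finset.sum_congr rfl (g := fun _ => (a (q c x.out) : ℂ)) fun u _ => ?_, Finset.sum_const, nsmul_eq_mul,
      mul_comm, fx, Finset.card_univ, Nat.card_eq_fintype_card]
    · rfl
    · rw [hq, hq0 c u u.2, (hK c u).1 u.2, map_zero, add_zero, add_zero]
  refine ⟨γ, intGen_div ρ hcop ?_ γ hγ, Subtype.ext (mul_right_cancel₀ (fx_ne ρ 1) ?_), fun σ c => le_of_eq ?_,
    fun c hc => ?_⟩
  · let _ := MulAction.compHom M (ρ : C →* End (ZMod p) M)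
    exact intGen_kernel (fun w u => a (B w u - B w w)) fun c x y => congrArg a (congrArg₂ _ (hi c x y) (hi c x x))
  · rw [hγ, ← one_mul (fx ρ 1), ← (dl_eq_one ρ).2 (map_one ρ), dl_mul_fx]
    simp [q, ha]
  · have h1 := hnorm (σ.toRingHom.toMonoidHom.compAddChar ZMod.stdAddChar) (by
      obtain ⟨x, hx⟩ := AddChar.ne_one_iff.1 hψ
      exact AddChar.ne_one_iff.2 ⟨x, by simpa using hx⟩) c
    have h2 := congrArg (fun z => ‖σ z‖ ^ 2) (hγ c)
    simp only [map_sum, ha] at h2
    erw [h1] at h2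
    rw [map_mul, map_natCast, norm_mul, Complex.norm_natCast, ← dl_mul_fx ρ c, Nat.cast_mul] at h2
    have h3 : (fx ρ c : ℝ) ≠ 0 := Nat.cast_ne_zero.2 Nat.card_pos.ne'
    exact mul_right_cancel₀ (pow_ne_zero 2 h3) (by linear_combination h2)
  · simp only [γ, map_sum, ha', Finset.sum_const, nsmul_eq_mul, mul_one, Finset.card_univ]
    rw [← Nat.card_eq_fintype_card]
    exact cast_dl ρ hc

end Mod

end Cfsg.Lib.KGV
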